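import Cfsg.Agent.H311.K547.Index
import Cfsg.Agent.ClassicalGeometry.PSUAutMain

/-!
# S4547: automorphisms and frames of the unitary space (helper311)

* `exists_su` : permutations commuting with `θ` are induced by `SU`;
* `exists_conj` : a conjugate `toAut d ρ`, `d` diagonal on the frame, of every automorphism;
* `mono_semi` : it does not change the permutation.
-/

set_option autoImplicit false
set_option linter.unusedSectionVars false

namespace Cfsg.Agent.H311.K547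

open Cfsg Matrix Cfsg.Agent.LieClassical.HermBasic Cfsg.Agent.LieClassical.HermSiegel
open Cfsg.Agent.LieClassical.SUBasic
open Cfsg.Agent.ClassicalGeometry.PSUAutCount Cfsg.Agent.ClassicalGeometry.UnitAutBasic
open Cfsg.Agent.ClassicalGeometry.GUBasic (detHom coe_detHom card_rootsOfUnity_eq)
open scoped Nat

section

variable {F : Type*} [Field F] {n q : ℕ} {θ : Equiv.Perm (Fin n)} {j : F}

/-- the determinant of a diagonal map -/
theorem det_of_diag (hq : q ≠ 0) (h : Fd q θ j) {A : Matrix (Fin n) (Fin n) F} {c : Fin n → F}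
    (hA : ∀ k, A *ᵥ fb θ j k = c k • fb θ j k) : A.det = ∏ k, c k := by
  classical
  have h1 : LinearMap.toMatrix (h.basis hq) (h.basis hq) (Matrix.toLin' A) = Matrix.diagonal c := by
    ext i k
    rw [LinearMap.toMatrix_apply, h.basis_apply hq, Matrix.toLin'_apply, hA, ← h.basis_apply hq, map_smul,
      Module.Basis.repr_self, Matrix.diagonal_apply]
    simp only [Finsupp.smul_single, smul_eq_mul, mul_one, Finsupp.single_apply]
    by_cases hik : i = k
    · subst hik; simp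
    · rw [if_neg hik, if_neg (fun h => hik h.symm)]
  have h2 := LinearMap.det_toMatrix (h.basis hq) (Matrix.toLin' A)
  rw [h1, Matrix.det_diagonal, LinearMap.det_toLin'] at h2
  exact h2.symm

/-- field automorphisms on the frame -/
theorem exists_field (h : Fd q θ j) (ρ : F ≃+* F) :
    ∃ w : Equiv.Perm (Fin n), (w = 1 ∨ w = θ) ∧
      ∀ k, ∃ u : F, u ≠ 0 ∧ (fun i => ρ (fb θ j k i)) = u • fb θ j (w k) := by
  have h1 : ∀ k, (fun i => ρ (fb θ j k i)) = fb θ (ρ j) k := by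
    intro k
    funext i
    rw [fb_apply, fb_apply, co, co, map_add, map_mul]
    split_ifs <;> simp
  by_cases hθ : ∀ k, θ k = k
  · refine ⟨1, Or.inl rfl, fun k => ⟨1, one_ne_zero, ?_⟩⟩
    rw [h1, one_smul]
    funext i
    rw [fb_apply, fb_apply, co, co, if_pos (hθ k), if_pos (hθ _), zero_mul, zero_mul]
    rfl
  · push Not at hθ
    obtain ⟨k0, hk0⟩ := hθ
    have h2 := h.sq k0 hk0
    have h3 : ρ j ^ 2 = j ^ 2 := by rw [← map_pow, h2, map_neg, map_one]
    rcases sq_eq_sq_iff_eq_or_eq_neg.1 h3 with h4 | h4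
    · refine ⟨1, Or.inl rfl, fun k => ⟨1, one_ne_zero, ?_⟩⟩
      rw [h1, one_smul, h4]
      rfl
    · refine ⟨θ, Or.inr rfl, fun k => ?_⟩
      by_cases hk : θ k = k
      · refine ⟨1, one_ne_zero, ?_⟩
        rw [h1, one_smul, hk]
        funext i
        rw [fb_apply, fb_apply, co, co, if_pos hk, if_pos hk]
      · have hj : j ≠ 0 := by
          rintro rfl
          rw [zero_pow two_ne_zero] at h2
          exact one_ne_zero (neg_eq_zero.1 h2.symm)
        refine ⟨-j, neg_ne_zero.2 hj, ?_⟩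
        rw [h1, h4]
        funext i
        have hk' : ¬ θ (θ k) = θ k := fun h5 => hk (θ.injective h5)
        rw [Pi.smul_apply, fb_apply, fb_apply, co, co, if_neg hk, if_neg hk', smul_eq_mul, h.inv]
        linear_combination (if i = k then (1 : F) else 0) * h2

/-- the element of `SU` -/
def toSU (g : GU n F q) (hg : (gm g).det = 1) : SU n F q := ⟨⟨gm g, hg⟩, g.2⟩

theorem mat_toSU (g : GU n F q) (hg : (gm g).det = 1) : mat (toSU g hg) = gm g := rfl

/-- the semilinear conjugation does not change the permutation -/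
theorem mono_semi (h : Fd q θ j) {d : GU n F q} (hd : Mono θ j (gm d) 1) (ρ : F ≃+* F)
    {g : SU n F q} {σ : Equiv.Perm (Fin n)} (hσ : ∀ k, σ (θ k) = θ (σ k)) (hg : Mono θ j (mat g) σ) :
    Mono θ j (mat (semiConj d ρ g)) σ := by
  obtain ⟨w, hw, hu⟩ := exists_field h ρ
  have hww : ∀ k, w (w k) = k := by
    rcases hw with rfl | rfl
    · intro k; rfl
    · exact h.inv
  have hσw : ∀ k, σ (w k) = w (σ k) := by
    rcases hw with rfl | rfl
    · intro k; rfl
    · exact hσ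
  intro k
  obtain ⟨u, hu0, hu1⟩ := hu (w k)
  obtain ⟨c, hc0, hc1⟩ := hg (w k)
  obtain ⟨u', hu'0, hu'1⟩ := hu (σ (w k))
  obtain ⟨a, ha0, ha1⟩ := hd k
  obtain ⟨b, hb0, hb1⟩ := hd (σ k)
  have e1 := act_semiConj d ρ g (fb θ j (w k))
  rw [hu1, hww, act_def, mulVec_smul, ha1, act_def, hc1] at e1
  have e2 : (fun i => ρ ((c • fb θ j (σ (w k))) i)) = ρ c • fun i => ρ (fb θ j (σ (w k)) i) := by
    funext i
    simp [Pi.smul_apply]
  rw [e2, hu'1, ← hσw, hww] at e1
  simp only [mulVec_smul, hb1, smul_smul] at e1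
  change (u * a) • (mat (semiConj d ρ g) *ᵥ fb θ j k) = _ • fb θ j (σ k) at e1
  refine ⟨(u * a)⁻¹ * (ρ c * u' * b), ?_, ?_⟩
  · exact mul_ne_zero (inv_ne_zero (mul_ne_zero hu0 ha0)) (mul_ne_zero (mul_ne_zero ((map_ne_zero ρ).2 hc0) hu'0) hb0)
  · rw [mul_smul, ← e1, smul_smul, inv_mul_cancel₀ (mul_ne_zero hu0 ha0), one_smul]

end

section fin

variable {F : Type*} [Field F] [Fintype F] {n q : ℕ} (hF : Fintype.card F = q ^ 2)
  {θ : Equiv.Perm (Fin n)} {j : F} (h : Fd q θ j)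
include hF h

omit h in
/-- **Hilbert 90** -/
theorem hilb {δ : F} (hδ : δ * δ ^ q = 1) : ∃ s : F, s ≠ 0 ∧ s = δ * s ^ q := by
  obtain ⟨x, hx⟩ : ∃ x : F, x + δ * x ^ q ≠ 0 := by
    by_contra hcon
    push Not at hcon
    have h1 := hcon 1
    rw [one_pow, mul_one] at h1
    obtain ⟨x, hx⟩ := exists_not_fixed hF
    apply hx
    have h2 := hcon x
    have h3 : δ = -1 := by linear_combination h1
    rw [h3] at h2
    linear_combination -h2
  refine ⟨x + δ * x ^ q, hx, ?_⟩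
  rw [add_pow_q hF, mul_pow, pow_q_pow_q hF]
  linear_combination -x * hδ

/-- coefficients with given product -/
theorem exists_coef (hn : 1 ≤ n) {δ : F} (hδ : δ * δ ^ q = 1) :
    ∃ c : Fin n → F, (∀ k, c k * c (θ k) ^ q = 1) ∧ ∏ k, c k = δ := by
  classical
  have k0 : Fin n := ⟨0, by omega⟩
  by_cases hk : θ k0 = k0
  · refine ⟨fun k => if k = k0 then δ else 1, fun k => ?_, ?_⟩
    · simp only
      by_cases h1 : k = k0
      · subst h1
        rw [hk, if_pos rfl, hδ]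
      · have h2 : θ k ≠ k0 := fun h3 => h1 (by rw [← h.inv k, h3, hk])
        rw [if_neg h1, if_neg h2, one_pow, mul_one]
    · rw [Finset.prod_ite_eq' Finset.univ k0 (fun _ => δ), if_pos (Finset.mem_univ _)]
  · obtain ⟨s, hs0, hs⟩ := hilb hF hδ
    refine ⟨fun k => (if k = k0 then s else 1) * (if k = θ k0 then (s ^ q)⁻¹ else 1), fun k => ?_, ?_⟩
    · simp only
      by_cases h1 : k = k0
      · subst h1
        have hk' : ¬ k = θ k := fun h => hk h.symm
        simp only [hk, hk', if_true, if_false, mul_one, one_mul, inv_pow, pow_q_pow_q hF, mul_inv_cancel₀ hs0]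
      · by_cases h2 : k = θ k0
        · subst h2
          have hk' : ¬ k0 = θ k0 := fun h => hk h.symm
          simp only [h.inv, hk, hk', if_true, if_false, mul_one, one_mul, inv_mul_cancel₀ (pow_ne_zero q hs0)]
        · have h3 : ¬ θ k = k0 := fun h3 => h2 (by rw [← h3, h.inv])
          have h4 : ¬ θ k = θ k0 := fun h3 => h1 (θ.injective h3)
          simp only [h1, h2, h3, h4, if_false, mul_one, one_pow]
    · rw [Finset.prod_mul_distrib, Finset.prod_ite_eq' Finset.univ k0 (fun _ => s), if_pos (Finset.mem_univ _),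
        Finset.prod_ite_eq' Finset.univ (θ k0) (fun _ => (s ^ q)⁻¹), if_pos (Finset.mem_univ _)]
      have h1 := pow_ne_zero q hs0
      calc s * (s ^ q)⁻¹ = δ * s ^ q * (s ^ q)⁻¹ := by rw [← hs]
        _ = δ := by rw [mul_assoc, mul_inv_cancel₀ h1, mul_one]

/-- diagonal isometries of given determinant -/
theorem exists_diag (hn : 1 ≤ n) {δ : F} (hδ : δ * δ ^ q = 1) :
    ∃ d : GU n F q, Mono θ j (gm d) 1 ∧ (gm d).det = δ := by
  obtain ⟨c, hc, hc'⟩ := exists_coef hF h hn hδ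
  obtain ⟨d, hd⟩ := exists_gu hF h (σ := 1) (fun k => rfl) hc
  exact ⟨d, fun k => ⟨c k, coef_ne h hc k, hd k⟩, by
    rw [← hc']
    exact det_of_diag (q_pos hF).ne' h hd⟩

omit h in
theorem det_gu (A : GU n F q) : (gm A).det * (gm A).det ^ q = 1 := by
  have h1 := (mem_rootsOfUnity _ _).1 (detHom n hF A).2
  have h2 := congrArg (fun z : Fˣ => (z : F)) h1
  simp only [Units.val_pow_eq_pow_val, Units.val_one, coe_detHom] at h2
  rw [← pow_succ']
  exact h2

/-- permutations in the image of `SU` -/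
theorem exists_su (hn : 1 ≤ n) {σ : Equiv.Perm (Fin n)} (hσ : ∀ k, σ (θ k) = θ (σ k)) :
    ∃ g : SU n F q, Mono θ j (mat g) σ := by
  obtain ⟨g, hg⟩ := exists_gu hF h hσ (c := fun _ => 1) (fun k => by rw [one_pow, mul_one])
  obtain ⟨d, hd, hd'⟩ := exists_diag hF h hn (δ := (gm g⁻¹).det) (det_gu hF _)
  have h1 : (gm (g * d)).det = 1 := by
    rw [gm_mul, det_mul, hd', ← det_mul, gm_mul_inv, det_one]
  refine ⟨toSU (g * d) h1, ?_⟩
  rw [mat_toSU, gm_mul]
  have h2 : Mono θ j (gm g) σ := fun k => ⟨1, one_ne_zero, hg k⟩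
  exact h2.mul hd

/-- automorphisms modulo inner ones -/
theorem exists_conj (hn : 1 ≤ n) (A : GU n F q) (ρ : F ≃+* F) :
    ∃ (s : PSU n F q) (d : GU n F q), Mono θ j (gm d) 1 ∧ MulAut.conj s * toAut A ρ = toAut d ρ := by
  obtain ⟨d, hd, hd'⟩ := exists_diag hF h hn (det_gu hF A)
  have h1 : (gm (A * d⁻¹)).det = 1 := by
    rw [gm_mul, det_mul, ← hd', ← det_mul, gm_mul_inv, det_one]
  refine ⟨(pr n F q (toSU (A * d⁻¹) h1))⁻¹, d, hd, ?_⟩
  set s := toSU (A * d⁻¹) h1 with hs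
  have hsd : ∀ x, act s (gm d *ᵥ x) = gm A *ᵥ x := by
    intro x
    rw [act_def, hs, mat_toSU, mulVec_mulVec, gm_mul, Matrix.mul_assoc, gm_inv_mul, Matrix.mul_one]
  ext1 m
  obtain ⟨g, rfl⟩ := pr_surjective m
  rw [MulAut.mul_apply, toAut_pr, toAut_pr, MulAut.conj_apply, inv_inv, ← map_inv, ← map_mul, ← map_mul]
  congr 1
  apply ext_act
  intro x
  have hx : x = gm d *ᵥ fun i => ρ ((fun j => ρ.symm ((gm d⁻¹ *ᵥ x) j)) i) := by
    have : (fun i => ρ ((fun j => ρ.symm ((gm d⁻¹ *ᵥ x) j)) i)) = gm d⁻¹ *ᵥ x := by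
      funext i
      simp
    rw [this, gm_mulVec_inv]
  rw [hx]
  generalize (fun j => ρ.symm ((gm d⁻¹ *ᵥ x) j)) = y
  rw [act_semiConj, act_mul, act_mul, hsd, act_semiConj, ← hsd, act_inv_act]

omit hF h in
/-- the permutation of an element of `PSU` -/
def Pm (θ : Equiv.Perm (Fin n)) (j : F) (m : PSU n F q) (σ : Equiv.Perm (Fin n)) : Prop :=
  ∃ g : SU n F q, pr n F q g = m ∧ Mono θ j (mat g) σ

omit hF h in
theorem Pm.mul {m m' : PSU n F q} {σ σ' : Equiv.Perm (Fin n)} (hm : Pm θ j m σ) (hm' : Pm θ j m' σ') :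
    Pm θ j (m * m') (σ * σ') := by
  obtain ⟨g, rfl, hg⟩ := hm
  obtain ⟨g', rfl, hg'⟩ := hm'
  exact ⟨g * g', map_mul _ _ _, by rw [mat_mul]; exact hg.mul hg'⟩

omit hF h in
theorem mem_FrP {m : PSU n F q} : m ∈ FrP q θ j ↔ ∃ σ, Pm θ j m σ := by
  constructor
  · rintro ⟨g, ⟨σ, hσ⟩, rfl⟩
    exact ⟨σ, g, rfl, hσ⟩
  · rintro ⟨σ, g, rfl, hσ⟩
    exact ⟨g, ⟨σ, hσ⟩, rfl⟩

theorem Pm.unique (hn : 3 ≤ n) {m : PSU n F q} {σ σ' : Equiv.Perm (Fin n)} (hm : Pm θ j m σ)
    (hm' : Pm θ j m σ') : σ = σ' := by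
  obtain ⟨g, rfl, hg⟩ := hm
  obtain ⟨g', hgg, hg'⟩ := hm'
  obtain ⟨c, hc, hx⟩ := exists_scalar_of_pr_eq hF hn hgg
  have hc0 : c ≠ 0 := by
    rintro rfl
    rw [zero_mul] at hc
    exact zero_ne_one hc
  refine Mono.unique (q_pos hF).ne' h hg (ρ := σ') ?_
  intro k
  obtain ⟨a, ha, ha'⟩ := hg' k
  refine ⟨c * a, mul_ne_zero hc0 ha, ?_⟩
  rw [mul_smul, ← ha']
  exact hx _

theorem Pm.comm {m : PSU n F q} {σ : Equiv.Perm (Fin n)} (hm : Pm θ j m σ) (k : Fin n) :
    σ (θ k) = θ (σ k) := by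
  obtain ⟨g, rfl, hg⟩ := hm
  exact hg.comm (q_pos hF).ne' h (fun u v => (LieClassical.HermBasic.mem_SU_iff _).1 g.2 u v) k

theorem Pm.semi {m : PSU n F q} {σ : Equiv.Perm (Fin n)} (hm : Pm θ j m σ) {d : GU n F q}
    (hd : Mono θ j (gm d) 1) (ρ : F ≃+* F) : Pm θ j (toAut d ρ m) σ := by
  have hc := hm.comm hF h
  obtain ⟨g, rfl, hg⟩ := hm
  exact ⟨semiConj d ρ g, (toAut_pr _ _ _).symm, mono_semi h hd ρ hc hg⟩

omit hF h in
/-- the permutations commuting with `θ` -/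
def Cen (θ : Equiv.Perm (Fin n)) : Subgroup (Equiv.Perm (Fin n)) where
  carrier := {σ | ∀ k, σ (θ k) = θ (σ k)}
  one_mem' := fun _ => rfl
  mul_mem' := by
    intro a b ha hb k
    rw [Equiv.Perm.mul_apply, hb, ha]
    rfl
  inv_mem' := by
    intro a ha k
    apply a.injective
    have h1 : ∀ x, a (a⁻¹ x) = x := a.apply_symm_apply
    rw [ha, h1, h1]

/-- the homomorphism onto the group of permutations -/
theorem exists_hom (hn : 3 ≤ n) : ∃ f : FrP q θ j →* Cen θ, Function.Surjective f ∧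
    ∀ (m : FrP q θ j) (σ : Equiv.Perm (Fin n)), Pm θ j (m : PSU n F q) σ → (f m : Equiv.Perm (Fin n)) = σ := by
  choose σ hσ using fun m : FrP q θ j => mem_FrP.1 m.2
  have huniq : ∀ (m : FrP q θ j) (ρ : Equiv.Perm (Fin n)), Pm θ j (m : PSU n F q) ρ → σ m = ρ :=
    fun m ρ hρ => (hσ m).unique hF h hn hρ
  refine ⟨MonoidHom.mk' (fun m => ⟨σ m, (hσ m).comm hF h⟩) (fun a b => Subtype.ext ?_), ?_, huniq⟩
  · exact huniq _ _ ((hσ a).mul (hσ b))
  · rintro ⟨ρ, hρ⟩
    obtain ⟨g, hg⟩ := exists_su hF h (by omega) hρ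
    refine ⟨⟨pr n F q g, mem_FrP.2 ⟨ρ, g, rfl, hg⟩⟩, Subtype.ext ?_⟩
    exact huniq _ _ ⟨g, rfl, hg⟩

end fin

end Cfsg.Agent.H311.K547
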