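import Cfsg.Agent.H311.K547.Klein
import Cfsg.Agent.H311.K547.Ext
import Cfsg.Agent.H951.K547.Gen
import Cfsg.Agent.S0283

/-!
# S4547: outer automorphisms of `PSU_n(q)`, `n ≥ 4`, `q` odd (helper311)

`ext_data` : a subgroup `M` of odd index (the stabiliser of a frame), a conjugate `τ'` of `τ` modulo inner automorphisms
which normalises `M`, and a homomorphism of `M` onto a group of permutations, invariant under `τ'`; the Sylow
2-subgroups of the image map onto `C2²`.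
-/

set_option autoImplicit false

namespace Cfsg.Agent.H311.K547

open Cfsg Cfsg.Agent.H821.K547 Cfsg.Agent.LieClassical.HermBasic
open Cfsg.Agent.ClassicalGeometry.PSUAutCount Cfsg.Agent.ClassicalGeometry.UnitAutBasic

/-- `2i ↔ 2i + 1` -/
def tN (n k : ℕ) : ℕ := if k % 2 = 0 then (if k + 1 < n then k + 1 else k) else k - 1

def vN (k : ℕ) : ℕ := if k < 4 then (if k % 2 = 0 then k + 1 else k - 1) else k

def wN (k : ℕ) : ℕ := if k < 4 then (if k < 2 then k + 2 else k - 2) else k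

theorem tN_lt {n k : ℕ} (h : k < n) : tN n k < n := by
  unfold tN; split_ifs <;> omega

theorem tN_tN {n k : ℕ} (h : k < n) : tN n (tN n k) = k := by
  unfold tN; split_ifs <;> omega

theorem vN_lt {n k : ℕ} (hn : 4 ≤ n) (h : k < n) : vN k < n := by
  unfold vN; split_ifs <;> omega

theorem vN_vN (k : ℕ) : vN (vN k) = k := by
  unfold vN; split_ifs <;> omega

theorem wN_lt {n k : ℕ} (hn : 4 ≤ n) (h : k < n) : wN k < n := by
  unfold wN; split_ifs <;> omega

theorem wN_wN (k : ℕ) : wN (wN k) = k := by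
  unfold wN; split_ifs <;> omega

theorem vN_wN (k : ℕ) : vN (wN k) = wN (vN k) := by
  unfold vN wN; split_ifs <;> omega

theorem vN_tN {n k : ℕ} (hn : 4 ≤ n) (h : k < n) : vN (tN n k) = tN n (vN k) := by
  unfold vN tN; split_ifs <;> omega

theorem wN_tN {n k : ℕ} (hn : 4 ≤ n) (h : k < n) : wN (tN n k) = tN n (wN k) := by
  unfold wN tN; split_ifs <;> omega

/-- permutations given by involutions of `ℕ` -/
def mkP (n : ℕ) (f : ℕ → ℕ) (h1 : ∀ k < n, f k < n) (h2 : ∀ k < n, f (f k) = k) : Equiv.Perm (Fin n) where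
  toFun k := ⟨f k, h1 k k.2⟩
  invFun k := ⟨f k, h1 k k.2⟩
  left_inv k := Fin.ext (h2 k k.2)
  right_inv k := Fin.ext (h2 k k.2)

theorem coe_mkP {n : ℕ} {f : ℕ → ℕ} (h1 : ∀ k < n, f k < n) (h2 : ∀ k < n, f (f k) = k) (k : Fin n) :
    ((mkP n f h1 h2 k : Fin n) : ℕ) = f k := rfl

/-- **existence of the frame** -/
theorem exists_fd {F : Type*} [Field F] [Fintype F] {n q : ℕ} (hF : Fintype.card F = q ^ 2) (hq : Odd q) (hn : 4 ≤ n) :
    ∃ (θ : Equiv.Perm (Fin n)) (j : F), Fd q θ j ∧ OddF q θ ∧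
      ∃ a b : Equiv.Perm (Fin n), (∀ k, a (θ k) = θ (a k)) ∧ (∀ k, b (θ k) = θ (b k)) ∧ a * a = 1 ∧ b * b = 1 ∧
        a * b = b * a ∧ a ≠ 1 ∧ b ≠ 1 ∧ a ≠ b := by
  have h2 : (2 : F) ≠ 0 := by
    intro h0
    have h1 : ringChar F ∣ 2 := (ringChar.spec F 2).1 (by exact_mod_cast h0)
    have h3 : ringChar F = 2 := by
      rcases (Nat.dvd_prime Nat.prime_two).1 h1 with h4 | h4
      · exact absurd h4 (CharP.ringChar_ne_one)
      · exact h4
    have h4 := FiniteField.even_card_of_char_two h3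
    rw [hF] at h4
    have h5 : Odd (q ^ 2) := hq.pow
    rw [Nat.odd_iff] at h5
    omega
  let a := mkP n vN (fun k hk => vN_lt hn hk) (fun k _ => vN_vN k)
  let b := mkP n wN (fun k hk => wN_lt hn hk) (fun k _ => wN_wN k)
  have haa : a * a = 1 := Equiv.ext fun k => Fin.ext (vN_vN k)
  have hbb : b * b = 1 := Equiv.ext fun k => Fin.ext (wN_wN k)
  have hab : a * b = b * a := Equiv.ext fun k => Fin.ext (vN_wN k)
  let z : Fin n := ⟨0, by omega⟩
  have haz : ((a z : Fin n) : ℕ) = 1 := rfl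
  have hbz : ((b z : Fin n) : ℕ) = 2 := rfl
  have ha1 : a ≠ 1 := fun h => by
    rw [h] at haz
    exact absurd haz (by show (0 : ℕ) ≠ 1; norm_num)
  have hb1 : b ≠ 1 := fun h => by
    rw [h] at hbz
    exact absurd hbz (by show (0 : ℕ) ≠ 2; norm_num)
  have hne : a ≠ b := fun h => by
    rw [h, hbz] at haz
    omega
  have hq4 : q % 4 = 1 ∨ q % 4 = 3 := by
    rw [Nat.odd_iff] at hq
    omega
  rcases hq4 with hq4 | hq4
  · obtain ⟨j, hj⟩ : IsSquare (-1 : F) := by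
      rw [FiniteField.isSquare_neg_one_iff, hF]
      have : q ^ 2 % 4 = 1 := by rw [Nat.pow_mod, hq4]
      omega
    have hj2 : j ^ 2 = -1 := by rw [pow_two, ← hj]
    refine ⟨mkP n (tN n) (fun k hk => tN_lt hk) (fun k hk => tN_tN hk), j,
      ⟨fun k => Fin.ext (tN_tN k.2), fun _ _ => hj2, fun _ _ => ?_, h2⟩, Or.inr ⟨hq4, ?_⟩,
      a, b, fun k => Fin.ext (vN_tN hn k.2), fun k => Fin.ext (wN_tN hn k.2), haa, hbb, hab, ha1, hb1, hne⟩
    · obtain ⟨m, rfl⟩ : ∃ m, q = 4 * m + 1 := ⟨q / 4, by omega⟩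
      rw [pow_succ, pow_mul, show 4 = 2 * 2 from rfl, pow_mul, hj2]
      simp
    · rw [Finite.card_le_one_iff_subsingleton]
      refine ⟨fun x y => Subtype.ext (Fin.ext ?_)⟩
      have h3 : tN n (x : Fin n) = (x : Fin n) := congrArg Fin.val x.2
      have h4 : tN n (y : Fin n) = (y : Fin n) := congrArg Fin.val y.2
      have h5 := (x : Fin n).2
      have h6 := (y : Fin n).2
      unfold tN at h3 h4
      split_ifs at h3 h4 <;> omega
  · refine ⟨1, 0, ⟨fun k => rfl, fun k hk => absurd rfl hk, fun k hk => absurd rfl hk, h2⟩, Or.inl ⟨by omega, rfl⟩,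
      a, b, fun k => rfl, fun k => rfl, haa, hbb, hab, ha1, hb1, hne⟩

/-- **the data** -/
theorem ext_data {F : Type*} [Field F] [Fintype F] {n q : ℕ} (hF : Fintype.card F = q ^ 2) (hq : Odd q) (hn : 4 ≤ n)
    (τ : MulAut (PSU n F q)) :
    ∃ (s : PSU n F q) (M : Subgroup (PSU n F q)) (Y : Subgroup (Equiv.Perm (Fin n))) (f : M →* Y),
      Odd M.index ∧ Function.Surjective f ∧ (∀ Q : Sylow 2 Y, Rk 2 Q) ∧
      ∀ m : M, ∃ hm : (MulAut.conj s * τ) m ∈ M, f ⟨(MulAut.conj s * τ) m, hm⟩ = f m := by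
  obtain ⟨θ, j, h, ho, a, b, hac, hbc, haa, hbb, hab, ha1, hb1, hne⟩ := exists_fd hF hq hn
  obtain ⟨A, ρ, rfl⟩ := Cfsg.Agent.ClassicalGeometry.PSUAutMain.exists_toAut hF (by omega)
    (fun h => by omega) τ
  obtain ⟨s, d, hd, hsd⟩ := exists_conj hF h (by omega) A ρ
  obtain ⟨f, hf, hf'⟩ := exists_hom hF h (by omega)
  refine ⟨s, FrP q θ j, Cen θ, f, odd_index_FrP hF h (by omega) ho, hf, ?_, ?_⟩
  · exact rk_two_sylow (a := ⟨a, hac⟩) (b := ⟨b, hbc⟩) (Subtype.ext haa) (Subtype.ext hbb) (Subtype.ext hab)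
      (fun h => ha1 (congrArg Subtype.val h)) (fun h => hb1 (congrArg Subtype.val h))
      (fun h => hne (congrArg Subtype.val h))
  · intro m
    rw [hsd]
    obtain ⟨σ, hσ⟩ := mem_FrP.1 m.2
    have h1 := hσ.semi hF h hd ρ
    refine ⟨mem_FrP.2 ⟨σ, h1⟩, Subtype.ext ?_⟩
    rw [hf' _ _ h1, hf' _ _ hσ]

/-- cyclic groups do not map onto `C2²` -/
theorem not_rk_two_of_cyclic {P : Type*} [Group P] [IsCyclic P] (h : Rk 2 P) : False := by
  obtain ⟨f, hf⟩ := h
  have h1 : IsCyclic (Multiplicative (Fin 2 → ZMod 2)) := isCyclic_of_surjective f hf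
  have h2 : ∀ x : Multiplicative (Fin 2 → ZMod 2), x * x = 1 := by decide
  exact not_cyclic (h2 (Multiplicative.ofAdd (fun _ => 1))) (h2 (Multiplicative.ofAdd (fun i => if i = 0 then 1 else 0)))
    (by decide) (by decide) (by decide) h1

/-- **outer automorphisms of `PSU_n(q)`, `n ≥ 4`, `q` odd** -/
theorem d3_ext_psu {F : Type*} [Field F] [Fintype F] {n q : ℕ} (hF : Fintype.card F = q ^ 2) (hq : Odd q) (hn : 4 ≤ n)
    (τ : MulAut (PSU n F q)) (h2 : TwoPow τ) (hni : ¬ IsInn τ) : D3 (AutExt τ) := by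
  obtain ⟨s, M, Y, f, hM, hf, hY, hm⟩ := ext_data hF hq hn τ
  have : IsSimpleGroup (PSU n F q) := Cfsg.Agent.S0283.result hF n (by omega) (fun h => by omega)
  have hna : ¬ ∀ a b : PSU n F q, a * b = b * a := by
    intro hab
    let _ : CommGroup (PSU n F q) := { (inferInstance : Group (PSU n F q)) with mul_comm := hab }
    have h1 : IsCyclic (PSU n F q) := IsSimpleGroup.isCyclic
    have h3 : IsCyclic M := inferInstance
    have h4 : IsCyclic Y := isCyclic_of_surjective f hf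
    obtain ⟨Q⟩ : Nonempty (Sylow 2 Y) := inferInstance
    have h5 : IsCyclic Q := Subgroup.isCyclic (Q : Subgroup Y)
    exact not_rk_two_of_cyclic (hY Q)
  refine Cfsg.Agent.H951.K547.gen_inner (Cfsg.Agent.H951.K547.center_of_simple hna)
    (Cfsg.Agent.H951.K547.commutator_of_simple hna) τ h2 hni s M ?_ (fun x hx => (hm ⟨x, hx⟩).1) f hf 1 ?_ hY
  · rw [← even_iff_two_dvd, Nat.not_even_iff_odd]
    exact hM
  · intro m m' hmm
    obtain ⟨h3, h4⟩ := hm m
    rw [one_mul, inv_one, mul_one, ← h4]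
    exact congrArg f (Subtype.ext hmm)

end Cfsg.Agent.H311.K547
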