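import Cfsg.Agent.H311.K547.Val
import Cfsg.Agent.ClassicalGeometry.PSUAutCount

/-!
# S4547: frames of the unitary space (helper311)

For an involution `θ` of `Fin n` and `j` with `j² = -1`, `j ^ q = j` (not needed for `θ = 1`) the vectors
`fb θ j k = e_k + j e_(θ k)` form a basis with Gram matrix supported on `(k, θ k)`.

* `Mono θ j A σ` : the matrix `A` permutes the lines `⟨fb k⟩` as `σ`;
* `exists_gu` : isometries with given coefficients and permutation;
* `card_coef`, `card_comm` : the number of coefficients and of permutations.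
-/

set_option autoImplicit false
set_option linter.unusedSectionVars false

namespace Cfsg.Agent.H311.K547

open Cfsg Matrix Cfsg.Agent.LieClassical.HermBasic Cfsg.Agent.ClassicalGeometry.PSUAutCount
open scoped Nat

section

variable {F : Type*} [Field F] {n q : ℕ}

/-- the coefficient -/
def co (θ : Equiv.Perm (Fin n)) (j : F) (k : Fin n) : F := if θ k = k then 0 else j

/-- the frame -/
def fb (θ : Equiv.Perm (Fin n)) (j : F) (k : Fin n) : Fin n → F :=
  Pi.single k 1 + co θ j k • Pi.single (θ k) 1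

/-- the data -/
structure Fd (q : ℕ) (θ : Equiv.Perm (Fin n)) (j : F) : Prop where
  inv : ∀ k, θ (θ k) = k
  sq : ∀ k, θ k ≠ k → j ^ 2 = -1
  fr : ∀ k, θ k ≠ k → j ^ q = j
  two : (2 : F) ≠ 0

/-- the Gram matrix -/
def gam (θ : Equiv.Perm (Fin n)) (j : F) (k : Fin n) : F := if θ k = k then 1 else 2 * j

theorem fb_apply (θ : Equiv.Perm (Fin n)) (j : F) (k i : Fin n) :
    fb θ j k i = (if i = k then 1 else 0) + co θ j k * (if i = θ k then 1 else 0) := by
  simp [fb, Pi.single_apply]

theorem Fd.gam_ne {θ : Equiv.Perm (Fin n)} {j : F} (h : Fd q θ j) (k : Fin n) : gam θ j k ≠ 0 := by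
  rw [gam]
  split_ifs with h1
  · exact one_ne_zero
  · refine mul_ne_zero h.two ?_
    rintro rfl
    have := h.sq k h1
    rw [zero_pow two_ne_zero] at this
    exact one_ne_zero (neg_eq_zero.1 this.symm)

theorem Fd.herm (hq : q ≠ 0) {θ : Equiv.Perm (Fin n)} {j : F} (h : Fd q θ j) (k l : Fin n) :
    hermForm n F q (fb θ j k) (fb θ j l) = if l = θ k then gam θ j k else 0 := by
  have e1 : hermForm n F q (fb θ j k) (fb θ j l) = fb θ j l k ^ q + co θ j k * fb θ j l (θ k) ^ q := by
    rw [fb, herm_add_left, herm_smul_left, herm_single_left, herm_single_left, one_mul, one_mul]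
  rw [e1, fb_apply, fb_apply]
  have hinv := h.inv
  by_cases hkl : l = k
  · subst hkl
    by_cases hl : θ l = l
    · simp [co, gam, hl]
    · have hl' : ¬ l = θ l := fun h => hl h.symm
      have h2 := h.sq l hl
      have h3 := h.fr l hl
      simp only [co, gam, hl, hl', if_true, if_false, mul_zero, add_zero, one_pow, mul_one, zero_add, h3]
      linear_combination h2
  · have hkl' : ¬ k = l := fun h => hkl h.symm
    by_cases hl : l = θ k
    · subst hl
      have h1 : ¬ θ k = k := hkl
      have h2 : ¬ k = θ k := hkl'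
      have h3 := h.fr k h1
      simp only [co, gam, hinv, h1, h2, if_true, if_false, mul_one, zero_add, mul_zero, add_zero, one_pow, h3]
      ring
    · have h1 : ¬ k = θ l := fun h4 => hl (by rw [h4, hinv])
      have h2 : ¬ θ k = l := fun h4 => hl h4.symm
      have h3 : ¬ θ k = θ l := fun h4 => hkl' (θ.injective h4)
      simp only [hkl', h1, h2, h3, hl, if_false, mul_zero, add_zero, zero_pow hq]

theorem Fd.linearIndependent (hq : q ≠ 0) {θ : Equiv.Perm (Fin n)} {j : F} (h : Fd q θ j) :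
    LinearIndependent F (fb θ j) := by
  classical
  rw [Fintype.linearIndependent_iff]
  intro g hg l
  have h1 : hermForm n F q (∑ i, g i • fb θ j i) (fb θ j (θ l)) = g l * gam θ j l := by
    rw [herm_sum_left, Finset.sum_eq_single l]
    · rw [herm_smul_left, h.herm hq, if_pos rfl]
    · intro k _ hk
      rw [herm_smul_left, h.herm hq, if_neg, mul_zero]
      exact fun h2 => hk (θ.injective h2.symm)
    · intro h2
      exact absurd (Finset.mem_univ l) h2
  rw [hg, herm_zero_left] at h1
  exact (mul_eq_zero.1 h1.symm).resolve_right (h.gam_ne l)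

open Classical in
/-- the basis -/
noncomputable def Fd.basis (hq : q ≠ 0) {θ : Equiv.Perm (Fin n)} {j : F} (h : Fd q θ j) :
    Module.Basis (Fin n) F (Fin n → F) :=
  basisOfPiSpaceOfLinearIndependent (h.linearIndependent hq)

theorem Fd.basis_apply (hq : q ≠ 0) {θ : Equiv.Perm (Fin n)} {j : F} (h : Fd q θ j) (k : Fin n) :
    h.basis hq k = fb θ j k := by
  classical
  rw [Fd.basis, coe_basisOfPiSpaceOfLinearIndependent]

theorem Fd.fb_ne (hq : q ≠ 0) {θ : Equiv.Perm (Fin n)} {j : F} (h : Fd q θ j) (k : Fin n) : fb θ j k ≠ 0 :=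
  (h.linearIndependent hq).ne_zero k

theorem Fd.eq_of_smul (hq : q ≠ 0) {θ : Equiv.Perm (Fin n)} {j : F} (h : Fd q θ j) {k l : Fin n} {a b : F}
    (ha : a ≠ 0) (hab : a • fb θ j k = b • fb θ j l) : k = l ∧ a = b := by
  classical
  by_cases hkl : k = l
  · subst hkl
    exact ⟨rfl, smul_left_injective F (h.fb_ne hq k) hab⟩
  · exfalso
    have h1 : hermForm n F q (a • fb θ j k) (fb θ j (θ k)) = a * gam θ j k := by
      rw [herm_smul_left, h.herm hq, if_pos rfl]
    have h2 : hermForm n F q (b • fb θ j l) (fb θ j (θ k)) = 0 := by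
      rw [herm_smul_left, h.herm hq, if_neg, mul_zero]
      exact fun h2 => hkl (θ.injective h2)
    rw [hab, h2] at h1
    exact mul_ne_zero ha (h.gam_ne k) h1.symm

/-- two matrices agreeing on the frame -/
theorem Fd.ext (hq : q ≠ 0) {θ : Equiv.Perm (Fin n)} {j : F} (h : Fd q θ j) {A B : Matrix (Fin n) (Fin n) F}
    (hAB : ∀ k, A *ᵥ fb θ j k = B *ᵥ fb θ j k) : A = B := by
  have h1 : Matrix.toLin' A = Matrix.toLin' B :=
    (h.basis hq).ext fun k => by
      rw [h.basis_apply hq, Matrix.toLin'_apply, Matrix.toLin'_apply, hAB]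
  exact Matrix.toLin'.injective h1

/-- `A` permutes the lines as `σ` -/
def Mono (θ : Equiv.Perm (Fin n)) (j : F) (A : Matrix (Fin n) (Fin n) F) (σ : Equiv.Perm (Fin n)) : Prop :=
  ∀ k, ∃ c : F, c ≠ 0 ∧ A *ᵥ fb θ j k = c • fb θ j (σ k)

variable {θ : Equiv.Perm (Fin n)} {j : F}

theorem Mono.one : Mono θ j (1 : Matrix (Fin n) (Fin n) F) 1 := fun k =>
  ⟨1, one_ne_zero, by rw [one_mulVec, one_smul]; rfl⟩

theorem Mono.mul {A B : Matrix (Fin n) (Fin n) F} {σ ρ : Equiv.Perm (Fin n)} (hA : Mono θ j A σ) (hB : Mono θ j B ρ) :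
    Mono θ j (A * B) (σ * ρ) := by
  intro k
  obtain ⟨c, hc, h1⟩ := hB k
  obtain ⟨d, hd, h2⟩ := hA (ρ k)
  refine ⟨c * d, mul_ne_zero hc hd, ?_⟩
  rw [← mulVec_mulVec, h1, mulVec_smul, h2, smul_smul]
  rfl

theorem Mono.inv {A B : Matrix (Fin n) (Fin n) F} {σ : Equiv.Perm (Fin n)} (hA : Mono θ j A σ) (hAB : B * A = 1) :
    Mono θ j B σ⁻¹ := by
  intro k
  obtain ⟨c, hc, h1⟩ := hA (σ⁻¹ k)
  refine ⟨c⁻¹, inv_ne_zero hc, ?_⟩
  rw [show σ (σ⁻¹ k) = k from σ.apply_symm_apply k] at h1
  have h2 := congrArg (fun v => c⁻¹ • (B *ᵥ v)) h1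
  simp only [mulVec_mulVec, hAB, one_mulVec, mulVec_smul, smul_smul, inv_mul_cancel₀ hc, one_smul] at h2
  exact h2.symm

theorem Mono.smul {A : Matrix (Fin n) (Fin n) F} {σ : Equiv.Perm (Fin n)} (hA : Mono θ j A σ) {z : F} (hz : z ≠ 0) :
    Mono θ j (z • A) σ := by
  intro k
  obtain ⟨c, hc, h1⟩ := hA k
  exact ⟨z * c, mul_ne_zero hz hc, by rw [smul_mulVec, h1, smul_smul]⟩

theorem Mono.unique (hq : q ≠ 0) (h : Fd q θ j) {A : Matrix (Fin n) (Fin n) F} {σ ρ : Equiv.Perm (Fin n)}
    (hA : Mono θ j A σ) (hB : Mono θ j A ρ) : σ = ρ := by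
  ext1 k
  obtain ⟨c, hc, h1⟩ := hA k
  obtain ⟨d, hd, h2⟩ := hB k
  exact (h.eq_of_smul hq hc (h1.symm.trans h2)).1

/-- isometries -/
def Isom (q : ℕ) (A : Matrix (Fin n) (Fin n) F) : Prop :=
  ∀ u v, hermForm n F q (A *ᵥ u) (A *ᵥ v) = hermForm n F q u v

theorem Mono.comm (hq : q ≠ 0) (h : Fd q θ j) {A : Matrix (Fin n) (Fin n) F} {σ : Equiv.Perm (Fin n)}
    (hA : Mono θ j A σ) (hi : Isom q A) (k : Fin n) : σ (θ k) = θ (σ k) := by
  obtain ⟨c, hc, h1⟩ := hA k
  obtain ⟨d, hd, h2⟩ := hA (θ k)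
  have h3 := hi (fb θ j k) (fb θ j (θ k))
  rw [h1, h2, herm_smul_left, herm_smul_right, h.herm hq, h.herm hq, if_pos rfl] at h3
  by_contra hne
  rw [if_neg hne, mul_zero, mul_zero] at h3
  exact h.gam_ne k h3.symm

theorem gam_comm {σ : Equiv.Perm (Fin n)} (hσ : ∀ k, σ (θ k) = θ (σ k)) (k : Fin n) :
    gam θ j (σ k) = gam θ j k := by
  rw [gam, gam, ← hσ]
  by_cases h : θ k = k
  · rw [if_pos h, if_pos (by rw [h])]
  · rw [if_neg h, if_neg (fun h1 => h (σ.injective h1))]

/-- the coefficients of an isometry -/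
theorem coef_rel (hq : q ≠ 0) (h : Fd q θ j) {A : Matrix (Fin n) (Fin n) F} {σ : Equiv.Perm (Fin n)}
    (hi : Isom q A) (hσ : ∀ k, σ (θ k) = θ (σ k)) {c : Fin n → F}
    (hc : ∀ k, A *ᵥ fb θ j k = c k • fb θ j (σ k)) (k : Fin n) : c k * c (θ k) ^ q = 1 := by
  have h3 := hi (fb θ j k) (fb θ j (θ k))
  rw [hc, hc, herm_smul_left, herm_smul_right, h.herm hq, h.herm hq, if_pos rfl, if_pos (hσ k), gam_comm hσ,
    ← mul_assoc] at h3
  exact mul_right_cancel₀ (h.gam_ne k) (h3.trans (one_mul _).symm)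

end

/-- the number of points -/
theorem card_points {n : ℕ} {θ : Equiv.Perm (Fin n)} (hθ : ∀ k, θ (θ k) = k) :
    2 * Nat.card {k : Fin n // k < θ k} + Nat.card {k : Fin n // θ k = k} = n ∧
      θ.support.card = 2 * Nat.card {k : Fin n // k < θ k} := by
  classical
  have e1 : Nat.card {k : Fin n // k < θ k} = (Finset.univ.filter fun k : Fin n => k < θ k).card := by
    rw [Nat.card_eq_fintype_card, Fintype.card_subtype]
  have e2 : Nat.card {k : Fin n // θ k = k} = (Finset.univ.filter fun k : Fin n => θ k = k).card := by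
    rw [Nat.card_eq_fintype_card, Fintype.card_subtype]
  have e3 : (Finset.univ.filter fun k : Fin n => θ k < k).card = (Finset.univ.filter fun k : Fin n => k < θ k).card := by
    refine Finset.card_bij (fun k _ => θ k) ?_ ?_ ?_
    · intro k hk
      rw [Finset.mem_filter] at hk ⊢
      exact ⟨Finset.mem_univ _, by rw [hθ]; exact hk.2⟩
    · intro a _ b _ hab
      exact θ.injective hab
    · intro b hb
      rw [Finset.mem_filter] at hb
      exact ⟨θ b, by rw [Finset.mem_filter, hθ]; exact ⟨Finset.mem_univ _, hb.2⟩, hθ b⟩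
  have e4 : θ.support = (Finset.univ.filter fun k : Fin n => θ k < k) ∪ (Finset.univ.filter fun k : Fin n => k < θ k) := by
    ext k
    rw [Equiv.Perm.mem_support, Finset.mem_union, Finset.mem_filter, Finset.mem_filter]
    constructor
    · intro h
      rcases lt_or_gt_of_ne h with h1 | h1
      · exact Or.inl ⟨Finset.mem_univ _, h1⟩
      · exact Or.inr ⟨Finset.mem_univ _, h1⟩
    · rintro (⟨-, h1⟩ | ⟨-, h1⟩)
      · exact h1.ne
      · exact h1.ne'
  have e5 : θ.support.card = 2 * Nat.card {k : Fin n // k < θ k} := by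
    rw [e4, Finset.card_union_of_disjoint, e3, e1]
    · ring
    · rw [Finset.disjoint_filter]
      intro k _ h1 h2
      exact lt_asymm h1 h2
  refine ⟨?_, e5⟩
  have e6 : Nat.card {k : Fin n // θ k = k} = n - θ.support.card := by
    rw [e2]
    have h1 : (Finset.univ.filter fun k : Fin n => θ k = k) = θ.supportᶜ := by
      ext k
      rw [Finset.mem_filter, Finset.mem_compl, Equiv.Perm.mem_support, not_not]
      exact ⟨fun h => h.2, fun h => ⟨Finset.mem_univ _, h⟩⟩
    rw [h1, Finset.card_compl, Fintype.card_fin]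
  have e7 : θ.support.card ≤ n := (Finset.card_le_univ _).trans_eq (Fintype.card_fin n)
  omega

/-- the number of permutations commuting with `θ` -/
theorem card_comm {n : ℕ} {θ : Equiv.Perm (Fin n)} (hθ : ∀ k, θ (θ k) = k) :
    Nat.card {σ : Equiv.Perm (Fin n) // ∀ k, σ (θ k) = θ (σ k)} =
      (Nat.card {k : Fin n // θ k = k})! * (2 ^ Nat.card {k : Fin n // k < θ k} *
        (Nat.card {k : Fin n // k < θ k})!) := by
  classical
  obtain ⟨h1, h2⟩ := card_points hθ
  have e1 : Nat.card {σ : Equiv.Perm (Fin n) // ∀ k, σ (θ k) = θ (σ k)} =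
      Nat.card (Subgroup.centralizer ({θ} : Set (Equiv.Perm (Fin n)))) := by
    refine Nat.card_congr (Equiv.subtypeEquivRight fun σ => ?_)
    rw [Subgroup.mem_centralizer_singleton_iff]
    constructor
    · intro h
      ext1 k
      exact h k
    · intro h k
      exact congrArg (fun x : Equiv.Perm (Fin n) => x k) h
  set c := Nat.card {k : Fin n // k < θ k} with hc
  have e2 : θ.cycleType = Multiset.replicate c 2 := by
    have h3 : ∀ m ∈ θ.cycleType, m = 2 := by
      intro m hm
      have h4 := Equiv.Perm.two_le_of_mem_cycleType hm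
      have h5 := Equiv.Perm.dvd_of_mem_cycleType hm
      have h6 : θ ^ 2 = 1 := by
        ext1 k
        rw [pow_two]
        exact hθ k
      have h7 := Nat.le_of_dvd (by norm_num) (h5.trans (orderOf_dvd_of_pow_eq_one h6))
      omega
    have h4 : Multiset.card θ.cycleType = c := by
      have h5 := Equiv.Perm.sum_cycleType θ
      rw [Multiset.eq_replicate_of_mem h3, Multiset.sum_replicate, h2] at h5
      rw [Multiset.eq_replicate_of_mem h3, Multiset.card_replicate]
      simp only [smul_eq_mul] at h5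
      omega
    rw [← h4]
    exact Multiset.eq_replicate_of_mem h3
  rw [e1, Equiv.Perm.nat_card_centralizer, e2, Multiset.sum_replicate, Multiset.prod_replicate, Fintype.card_fin,
    smul_eq_mul]
  have e3 : n - c * 2 = Nat.card {k : Fin n // θ k = k} := by omega
  rw [e3, mul_assoc]
  congr 2
  clear_value c
  by_cases h0 : c = 0
  · rw [h0]
    simp
  · rw [Multiset.toFinset_replicate, if_neg h0, Finset.prod_singleton, Multiset.count_replicate_self]

section fin

variable {F : Type*} [Field F] [Fintype F] {n q : ℕ} (hF : Fintype.card F = q ^ 2)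
  {θ : Equiv.Perm (Fin n)} {j : F} (h : Fd q θ j)
include hF h

/-- **isometries with given coefficients** -/
theorem exists_isom {σ : Equiv.Perm (Fin n)} (hσ : ∀ k, σ (θ k) = θ (σ k)) {c : Fin n → F}
    (hc : ∀ k, c k * c (θ k) ^ q = 1) :
    ∃ A : Matrix (Fin n) (Fin n) F, Isom q A ∧ ∀ k, A *ᵥ fb θ j k = c k • fb θ j (σ k) := by
  classical
  have hq : q ≠ 0 := (q_pos hF).ne'
  let L : (Fin n → F) →ₗ[F] (Fin n → F) := (h.basis hq).constr F fun k => c k • fb θ j (σ k)
  have hL : ∀ k, L (fb θ j k) = c k • fb θ j (σ k) := by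
    intro k
    rw [← h.basis_apply hq, Module.Basis.constr_basis]
  have hLL : ∀ u v, hermForm n F q (L u) (L v) = hermForm n F q u v := by
    have h1 : ∀ (l : Fin n) (u : Fin n → F), hermForm n F q (L u) (L (fb θ j l)) = hermForm n F q u (fb θ j l) := by
      intro l u
      rw [← (h.basis hq).sum_repr u]
      generalize (h.basis hq).repr u = x
      rw [map_sum, herm_sum_left, herm_sum_left]
      refine Finset.sum_congr rfl fun k _ => ?_
      rw [map_smul, herm_smul_left, herm_smul_left, h.basis_apply hq, hL, hL, herm_smul_left, herm_smul_right,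
        h.herm hq, h.herm hq]
      by_cases hl : l = θ k
      · subst hl
        rw [if_pos (hσ k), if_pos rfl, gam_comm hσ, ← mul_assoc (c k), hc, one_mul]
      · rw [if_neg hl, if_neg, mul_zero, mul_zero]
        intro h2
        rw [← hσ] at h2
        exact hl (σ.injective h2)
    intro u v
    rw [← (h.basis hq).sum_repr v]
    generalize (h.basis hq).repr v = x
    rw [map_sum, herm_sum_right hF, herm_sum_right hF]
    refine Finset.sum_congr rfl fun k _ => ?_
    rw [map_smul, herm_smul_right, herm_smul_right, h.basis_apply hq, h1]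
  refine ⟨LinearMap.toMatrix' L, fun u v => ?_, fun k => ?_⟩
  · rw [LinearMap.toMatrix'_mulVec, LinearMap.toMatrix'_mulVec, hLL]
  · rw [LinearMap.toMatrix'_mulVec, hL]

omit h in
theorem isom_gm (g : GU n F q) : Isom q (gm g) := herm_gm g

omit h in
theorem exists_gm {A : Matrix (Fin n) (Fin n) F} (hA : Isom q A) : ∃ g : GU n F q, gm g = A := by
  classical
  have h1 : A.det ≠ 0 := by
    intro h0
    obtain ⟨v, hv, hv0⟩ := Matrix.exists_mulVec_eq_zero_iff.2 h0
    apply hv
    apply herm_nondeg hF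
    intro w
    rw [← hA, hv0, herm_zero_left]
  exact ⟨⟨Matrix.GeneralLinearGroup.mkOfDetNeZero A h1, hA⟩, rfl⟩

/-- the number of coefficients -/
theorem card_coef : Nat.card {c : Fin n → F // ∀ k, c k * c (θ k) ^ q = 1} =
    (q ^ 2 - 1) ^ Nat.card {k : Fin n // k < θ k} * (q + 1) ^ Nat.card {k : Fin n // θ k = k} := by
  classical
  have hq : q ≠ 0 := (q_pos hF).ne'
  have h1 : Nat.card {x : F // x ≠ 0} = q ^ 2 - 1 := by
    rw [Nat.card_congr unitsEquivNeZero.symm, Nat.card_units, Nat.card_eq_fintype_card, hF]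
  have h2 := card_norm_eq_one hF
  rw [← h1, ← h2, ← Nat.card_fun, ← Nat.card_fun, ← Nat.card_prod]
  have hne : ∀ (c : Fin n → F), (∀ k, c k * c (θ k) ^ q = 1) → ∀ k, c k ≠ 0 := fun c hc k h0 => by
    have := hc k
    rw [h0, zero_mul] at this
    exact zero_ne_one this
  let g1 : ({k : Fin n // k < θ k} → {x : F // x ≠ 0}) → Fin n → F :=
    fun x k => if h : k < θ k then (x ⟨k, h⟩ : F) else 1
  let g2 : ({k : Fin n // θ k = k} → {x : F // x * x ^ q = 1}) → Fin n → F :=
    fun x k => if h : θ k = k then (x ⟨k, h⟩ : F) else 1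
  have hg1 : ∀ x k, g1 x k ≠ 0 := by
    intro x k
    by_cases h3 : k < θ k
    · simp only [g1, h3, dif_pos]
      exact (x _).2
    · simp only [g1, h3, dif_neg, not_false_eq_true]
      exact one_ne_zero
  have hg2 : ∀ x k, g2 x k * g2 x k ^ q = 1 := by
    intro x k
    by_cases h3 : θ k = k
    · simp only [g2, h3, dif_pos]
      exact (x _).2
    · simp only [g2, h3, dif_neg, not_false_eq_true, one_pow, mul_one]
  refine Nat.card_congr
    { toFun := fun c => (fun k => ⟨c.1 k, hne c.1 c.2 k⟩, fun k => ⟨c.1 k, by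
        have := c.2 k
        rwa [k.2] at this⟩)
      invFun := fun p => ⟨fun k => if k < θ k then g1 p.1 k else if θ k = k then g2 p.2 k
          else ((g1 p.1 (θ k)) ^ q)⁻¹, ?_⟩
      left_inv := ?_
      right_inv := ?_ }
  · intro k
    simp only [h.inv]
    rcases lt_trichotomy k (θ k) with h3 | h3 | h3
    · rw [if_pos h3, if_neg (not_lt.2 h3.le), if_neg h3.ne, inv_pow, pow_q_pow_q hF, mul_inv_cancel₀ (hg1 _ _)]
    · rw [if_neg h3.not_lt, if_pos h3.symm, if_neg h3.symm.not_lt, if_pos h3, h3.symm, hg2]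
    · rw [if_neg (not_lt.2 h3.le), if_neg h3.ne, if_pos h3, inv_mul_cancel₀ (pow_ne_zero _ (hg1 _ _))]
  · rintro ⟨c, hc⟩
    apply Subtype.ext
    funext k
    show (if k < θ k then g1 _ k else if θ k = k then g2 _ k else ((g1 _ (θ k)) ^ q)⁻¹) = c k
    rcases lt_trichotomy k (θ k) with h3 | h3 | h3
    · rw [if_pos h3]
      simp only [g1, h3, dif_pos]
    · rw [if_neg h3.not_lt, if_pos h3.symm]
      simp only [g2, dif_pos h3.symm]
    · rw [if_neg (not_lt.2 h3.le), if_neg h3.ne]
      have h4 : θ k < θ (θ k) := by rw [h.inv]; exact h3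
      simp only [g1, dif_pos h4]
      exact (eq_inv_of_mul_eq_one_left (hc k)).symm
  · rintro ⟨x, y⟩
    refine Prod.ext (funext fun k => Subtype.ext ?_) (funext fun k => Subtype.ext ?_)
    · show (if (k : Fin n) < θ k then g1 x k else _) = _
      rw [if_pos k.2]
      simp only [g1, dif_pos k.2]
    · show (if (k : Fin n) < θ k then g1 x k else if θ k = k then g2 y k else _) = _
      rw [if_neg (by rw [k.2]; exact lt_irrefl _), if_pos k.2]
      simp only [g2, dif_pos k.2]

end fin

end Cfsg.Agent.H311.K547
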