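import Cfsg.Agent.H311.K547.Frame
import Cfsg.Agent.S0277

/-!
# S4547: the stabilisers of frames have odd index (helper311)

* `FrG`, `FrS`, `FrP` : the stabilisers in `GU`, `SU`, `PSU` of the set of lines of a frame;
* `OddF q θ` : `4 ∣ q + 1`, `θ = 1`, or `4 ∣ q - 1` and `θ` has at most one fixed point;
* `odd_index_FrG`, `odd_index_FrS`, `odd_index_FrP`.
-/

set_option autoImplicit false
set_option linter.unusedSectionVars false

namespace Cfsg.Agent.H311.K547

open Cfsg Matrix Cfsg.Agent.LieClassical.HermBasic Cfsg.Agent.LieClassical.HermSiegel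
open Cfsg.Agent.ClassicalGeometry.PSUAutCount Cfsg.Agent.ClassicalGeometry.UnitAutBasic
open Cfsg.Agent.ClassicalGeometry.GUBasic (detHom coe_detHom card_rootsOfUnity_eq)
open scoped Nat

section

variable {F : Type*} [Field F] {n : ℕ}

/-- the stabiliser in `GU` -/
def FrG (q : ℕ) (θ : Equiv.Perm (Fin n)) (j : F) : Subgroup (GU n F q) where
  carrier := {g | ∃ σ, Mono θ j (gm g) σ}
  one_mem' := ⟨1, Mono.one⟩
  mul_mem' := by
    rintro g h ⟨σ, hσ⟩ ⟨ρ, hρ⟩
    exact ⟨σ * ρ, hσ.mul hρ⟩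
  inv_mem' := by
    rintro g ⟨σ, hσ⟩
    exact ⟨σ⁻¹, hσ.inv (gm_inv_mul g)⟩

/-- the stabiliser in `SU` -/
def FrS (q : ℕ) (θ : Equiv.Perm (Fin n)) (j : F) : Subgroup (SU n F q) where
  carrier := {g | ∃ σ, Mono θ j (mat g) σ}
  one_mem' := ⟨1, Mono.one⟩
  mul_mem' := by
    rintro g h ⟨σ, hσ⟩ ⟨ρ, hρ⟩
    exact ⟨σ * ρ, by rw [mat_mul]; exact hσ.mul hρ⟩
  inv_mem' := by
    rintro g ⟨σ, hσ⟩
    exact ⟨σ⁻¹, hσ.inv (by rw [← mat_mul, inv_mul_cancel, mat_one])⟩

theorem mem_FrG {q : ℕ} {θ : Equiv.Perm (Fin n)} {j : F} {g : GU n F q} :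
    g ∈ FrG q θ j ↔ ∃ σ, Mono θ j (gm g) σ := Iff.rfl

theorem mem_FrS {q : ℕ} {θ : Equiv.Perm (Fin n)} {j : F} {g : SU n F q} :
    g ∈ FrS q θ j ↔ ∃ σ, Mono θ j (mat g) σ := Iff.rfl

/-- the stabiliser in `PSU` -/
def FrP (q : ℕ) (θ : Equiv.Perm (Fin n)) (j : F) : Subgroup (PSU n F q) := (FrS q θ j).map (pr n F q)

/-- when the index is odd -/
def OddF (q : ℕ) (θ : Equiv.Perm (Fin n)) : Prop :=
  (4 ∣ q + 1 ∧ θ = 1) ∨ (q % 4 = 1 ∧ Nat.card {k : Fin n // θ k = k} ≤ 1)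

end

section fin

variable {F : Type*} [Field F] [Fintype F] {n q : ℕ} (hF : Fintype.card F = q ^ 2)
  {θ : Equiv.Perm (Fin n)} {j : F} (h : Fd q θ j)
include hF h

theorem exists_gu {σ : Equiv.Perm (Fin n)} (hσ : ∀ k, σ (θ k) = θ (σ k)) {c : Fin n → F}
    (hc : ∀ k, c k * c (θ k) ^ q = 1) :
    ∃ g : GU n F q, ∀ k, gm g *ᵥ fb θ j k = c k • fb θ j (σ k) := by
  obtain ⟨A, hA, hA'⟩ := exists_isom hF h hσ hc
  obtain ⟨g, rfl⟩ := exists_gm hF hA
  exact ⟨g, hA'⟩

omit hF in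
theorem coef_ne {c : Fin n → F} (hc : ∀ k, c k * c (θ k) ^ q = 1) (k : Fin n) : c k ≠ 0 := by
  intro h0
  have := hc k
  rw [h0, zero_mul] at this
  exact zero_ne_one this

theorem card_FrG : Nat.card (FrG q θ j) = Nat.card {c : Fin n → F // ∀ k, c k * c (θ k) ^ q = 1} *
    Nat.card {σ : Equiv.Perm (Fin n) // ∀ k, σ (θ k) = θ (σ k)} := by
  classical
  have hq : q ≠ 0 := (q_pos hF).ne'
  rw [← Nat.card_prod]
  choose Φ hΦ using fun p : {c : Fin n → F // ∀ k, c k * c (θ k) ^ q = 1} ×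
    {σ : Equiv.Perm (Fin n) // ∀ k, σ (θ k) = θ (σ k)} => exists_gu hF h p.2.2 p.1.2
  refine (Nat.card_congr (Equiv.ofBijective (fun p => (⟨Φ p, p.2.1, fun k =>
    ⟨p.1.1 k, coef_ne h p.1.2 k, hΦ p k⟩⟩ : FrG q θ j)) ⟨?_, ?_⟩)).symm
  · intro p p' hpp
    have h1 : Φ p = Φ p' := congrArg Subtype.val hpp
    have h2 : ∀ k, p.2.1 k = p'.2.1 k ∧ p.1.1 k = p'.1.1 k := by
      intro k
      apply h.eq_of_smul hq (coef_ne h p.1.2 k)
      rw [← hΦ, ← hΦ, h1]
    refine Prod.ext (Subtype.ext (funext fun k => (h2 k).2)) (Subtype.ext (Equiv.ext fun k => (h2 k).1))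
  · rintro ⟨g, σ, hσ⟩
    have hi := isom_gm (F := F) hF g
    have hcomm := hσ.comm hq h hi
    obtain ⟨c, hc'⟩ : ∃ c : Fin n → F, ∀ k, c k ≠ 0 ∧ gm g *ᵥ fb θ j k = c k • fb θ j (σ k) :=
      ⟨fun k => (hσ k).choose, fun k => (hσ k).choose_spec⟩
    have hc := fun k => (hc' k).2
    refine ⟨(⟨c, coef_rel hq h hi hcomm hc⟩, ⟨σ, hcomm⟩), Subtype.ext (gm_inj (h.ext hq fun k => ?_))⟩
    rw [hΦ, hc]

theorem card_FrG' : Nat.card (FrG q θ j) =
    ((q ^ 2 - 1) ^ Nat.card {k : Fin n // k < θ k} * (q + 1) ^ Nat.card {k : Fin n // θ k = k}) *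
      ((Nat.card {k : Fin n // θ k = k})! * (2 ^ Nat.card {k : Fin n // k < θ k} *
        (Nat.card {k : Fin n // k < θ k})!)) := by
  rw [card_FrG hF h, card_coef hF h, card_comm h.inv]

/-- the 2-part of the order of `GU` -/
theorem e2_GU (ho : OddF q θ) : E2 (Nat.card (GU n F q)) (Nat.card (FrG q θ j)) := by
  have hq2 := Cfsg.Agent.LieClassical.HermBasic.two_le hF
  obtain ⟨h1, -⟩ := card_points h.inv
  have hodd : Odd q := by
    rcases ho with ⟨h2, -⟩ | ⟨h2, -⟩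
    · rw [Nat.odd_iff]; omega
    · rw [Nat.odd_iff]; omega
  rw [Cfsg.Agent.S0277.result hF n]
  refine (E2.odd_mul (hodd.pow)).trans ?_
  change E2 (∏ i ∈ Finset.range n, gf q i) _
  rw [card_FrG' hF h]
  rcases ho with ⟨h2, h3⟩ | ⟨h2, h3⟩
  · have h4 : Nat.card {k : Fin n // k < θ k} = 0 := by
      rw [Nat.card_eq_zero]
      left
      subst h3
      exact ⟨fun k => lt_irrefl _ k.2⟩
    rw [h4] at h1 ⊢
    rw [show Nat.card {k : Fin n // θ k = k} = n by omega]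
    simpa using e2_one hq2 h2 n
  · have h5 := e2_two hq2 h2 (Nat.card {k : Fin n // k < θ k})
    generalize Nat.card {k : Fin n // k < θ k} = m at *
    generalize Nat.card {k : Fin n // θ k = k} = r at *
    interval_cases r
    · have h6 : n = 2 * m := by omega
      subst h6
      simpa using h5.1
    · have h6 : n = 2 * m + 1 := by omega
      subst h6
      simpa using h5.2

/-- the determinant one part -/
theorem card_FrG_dvd : Nat.card (FrG q θ j) ∣ Nat.card (FrS q θ j) * (q + 1) := by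
  classical
  let d : FrG q θ j →* rootsOfUnity (q + 1) F := (detHom n hF).comp (FrG q θ j).subtype
  have h1 : Nat.card (FrG q θ j) = Nat.card d.ker * Nat.card d.range := by
    rw [← Nat.card_congr (QuotientGroup.quotientKerEquivRange d).toEquiv, mul_comm]
    exact Subgroup.card_eq_card_quotient_mul_card_subgroup d.ker
  have h2 : Nat.card d.range ∣ q + 1 := by
    have h3 := Subgroup.card_subgroup_dvd_card d.range
    rwa [card_rootsOfUnity_eq hF] at h3
  have h3 : Nat.card d.ker = Nat.card (FrS q θ j) := by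
    have hdet : ∀ g : d.ker, (gm (g : FrG q θ j).1).det = 1 := by
      intro g
      have h4 := g.2
      rw [MonoidHom.mem_ker] at h4
      have h5 := congrArg (fun z : rootsOfUnity (q + 1) F => ((z : Fˣ) : F)) h4
      exact h5
    refine Nat.card_congr
      { toFun := fun g => ⟨⟨⟨gm (g : FrG q θ j).1, hdet g⟩, (g : FrG q θ j).1.2⟩, (g : FrG q θ j).2⟩
        invFun := fun g => ⟨⟨⟨((g : SU n F q) : Matrix.SpecialLinearGroup (Fin n) F).toGL,
          (g : SU n F q).2⟩, g.2⟩, ?_⟩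
        left_inv := fun g => Subtype.ext (Subtype.ext (Subtype.ext (Units.ext rfl)))
        right_inv := fun g => rfl }
    rw [MonoidHom.mem_ker]
    apply Subtype.ext
    apply Units.ext
    exact ((g : SU n F q) : Matrix.SpecialLinearGroup (Fin n) F).2
  rw [h1, h3]
  exact Nat.mul_dvd_mul_left _ h2

theorem odd_index_FrG (ho : OddF q θ) : Odd (FrG q θ j).index := by
  refine E2.odd_of_mul (a := Nat.card (GU n F q)) (b := Nat.card (FrG q θ j)) Nat.card_pos.ne' ?_ (e2_GU hF h ho)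
  exact (Subgroup.card_mul_index _).symm

/-- **Odd index in `SU`.** -/
theorem odd_index_FrS (hn : 1 ≤ n) (ho : OddF q θ) : Odd (FrS q θ j).index := by
  have h1 := odd_index_FrG hF h ho
  have h2 := Subgroup.card_mul_index (FrG q θ j)
  have h3 := Subgroup.card_mul_index (FrS q θ j)
  have h4 := Cfsg.Agent.LieClassical.GUOrder.card_GU_eq hF hn
  obtain ⟨t, ht⟩ := card_FrG_dvd hF h
  have h5 : Nat.card (FrG q θ j) * (FrG q θ j).index = Nat.card (FrG q θ j) * (t * (FrS q θ j).index) := by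
    rw [h2, h4, ← h3, ← mul_assoc, ← mul_assoc, ← ht]
    ring
  have h6 := Nat.eq_of_mul_eq_mul_left Nat.card_pos h5
  rw [h6, Nat.odd_mul] at h1
  exact h1.2

/-- **Odd index in `PSU`.** -/
theorem odd_index_FrP (hn : 1 ≤ n) (ho : OddF q θ) : Odd (FrP q θ j).index := by
  have h1 := odd_index_FrS hF h hn ho
  have h2 := Subgroup.index_map_dvd (FrS q θ j) (f := pr n F q) pr_surjective
  exact Odd.of_dvd_nat h1 h2

end fin

end Cfsg.Agent.H311.K547
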