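import Cfsg.Agent.H951.K547.Rk

/-!
# S4547: noncyclic 2-groups and frames (helper311)

* `rk_two_of_not_cyclic` : a noncyclic finite 2-group maps onto `C2²`;
* `rk_two_sylow` : so do the Sylow 2-subgroups of a group with two commuting involutions.
-/

set_option autoImplicit false

namespace Cfsg.Agent.H311.K547

open Cfsg.Agent.H821.K547

universe u

theorem exists_index_two {Q : Type u} [Group Q] [Finite Q] (hQ : IsPGroup 2 Q) {H : Subgroup Q} (hH : H ≠ ⊤) :
    ∃ K : Subgroup Q, K.index = 2 ∧ H ≤ K := by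
  have : Fact (Nat.Prime 2) := ⟨Nat.prime_two⟩
  obtain ⟨k, hk⟩ := hQ.exists_card_eq
  obtain ⟨m, hm⟩ := (hQ.to_subgroup H).exists_card_eq
  have h1 : m < k := by
    have h2 : Nat.card H < Nat.card Q := by
      refine lt_of_le_of_ne (Nat.le_of_dvd Nat.card_pos (Subgroup.card_subgroup_dvd_card H)) fun h => hH ?_
      exact Subgroup.eq_top_of_card_eq H h
    rw [hk, hm] at h2
    exact (Nat.pow_lt_pow_iff_right (by norm_num)).1 h2
  obtain ⟨K, hK, hHK⟩ := Sylow.exists_subgroup_card_pow_prime_le 2 (n := m) (m := k - 1)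
    (by rw [hk]; exact pow_dvd_pow 2 (by omega)) H hm (by omega)
  refine ⟨K, ?_, hHK⟩
  have h3 := Subgroup.card_mul_index K
  rw [hK, hk, show k = (k - 1) + 1 by omega, pow_succ] at h3
  exact Nat.eq_of_mul_eq_mul_left (by positivity) h3

/-- a noncyclic finite 2-group maps onto `C2²` -/
theorem rk_two_of_not_cyclic {Q : Type u} [Group Q] [Finite Q] (hQ : IsPGroup 2 Q) (hc : ¬ IsCyclic Q) : Rk 2 Q := by
  have hz : ∀ x : Q, Subgroup.zpowers x ≠ ⊤ := by
    intro x hx
    refine hc ⟨x, fun y => ?_⟩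
    have h1 : y ∈ Subgroup.zpowers x := by rw [hx]; exact Subgroup.mem_top y
    exact h1
  obtain ⟨M, hM, -⟩ := exists_index_two hQ (hz 1)
  obtain ⟨x, hx⟩ : ∃ x, x ∉ M := by
    by_contra hcon
    push Not at hcon
    have : M = ⊤ := top_unique fun x _ => hcon x
    rw [this, Subgroup.index_top] at hM
    omega
  obtain ⟨K, hK, hxK⟩ := exists_index_two hQ (hz x)
  have hxK' : x ∈ K := hxK (Subgroup.mem_zpowers x)
  refine Cfsg.Agent.H951.K547.rk_of_sq (N := M ⊓ K) (fun y => ?_) ?_
  · exact ⟨Subgroup.sq_mem_of_index_two hM y, Subgroup.sq_mem_of_index_two hK y⟩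
  · have h1 : (M ⊓ K).relIndex K * K.index = (M ⊓ K).index := Subgroup.relIndex_mul_index inf_le_right
    rw [Subgroup.inf_relIndex_right, hK] at h1
    have h2 : M.relIndex K ≠ 1 := by
      intro h3
      exact hx (Subgroup.relIndex_eq_one.1 h3 hxK')
    have h3 : M.relIndex K ≠ 0 := fun h4 => by
      have h5 := Subgroup.relIndex_dvd_card M K
      rw [h4] at h5
      exact Nat.card_pos.ne' (zero_dvd_iff.1 h5)
    omega

/-- two involutions in a cyclic group -/
theorem not_cyclic {P : Type u} [Group P] [Finite P] {a b : P} (ha : a * a = 1) (hb : b * b = 1)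
    (ha1 : a ≠ 1) (hb1 : b ≠ 1) (hne : a ≠ b) : ¬ IsCyclic P := by
  intro hPc
  classical
  let _ : Fintype P := Fintype.ofFinite _
  have h5 := IsCyclic.card_pow_eq_one_le (α := P) (n := 2) (by norm_num)
  have h6 : ({1, a, b} : Finset P) ⊆ (Finset.univ.filter fun x : P => x ^ 2 = 1) := by
    intro x hx
    rw [Finset.mem_filter]
    refine ⟨Finset.mem_univ _, ?_⟩
    rw [Finset.mem_insert, Finset.mem_insert, Finset.mem_singleton] at hx
    rcases hx with rfl | rfl | rfl
    · exact one_pow 2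
    · rw [pow_two]; exact ha
    · rw [pow_two]; exact hb
  have h7 : ({1, a, b} : Finset P).card = 3 := by
    rw [Finset.card_eq_three]
    exact ⟨_, _, _, fun h => ha1 h.symm, fun h => hb1 h.symm, hne, rfl⟩
  have h8 := Finset.card_le_card h6
  have h9 : (Finset.univ.filter fun x : P => x ^ 2 = 1).card ≤ 2 := by convert h5
  omega

/-- groups with two commuting involutions -/
theorem rk_two_sylow {Y : Type u} [Group Y] [Finite Y] {a b : Y} (ha : a * a = 1) (hb : b * b = 1)
    (hab : a * b = b * a) (ha1 : a ≠ 1) (hb1 : b ≠ 1) (hne : a ≠ b) (Q : Sylow 2 Y) : Rk 2 Q := by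
  have : Fact (Nat.Prime 2) := ⟨Nat.prime_two⟩
  apply rk_two_of_not_cyclic Q.isPGroup'
  intro hcyc
  have hoa : orderOf a = 2 := orderOf_eq_prime (by rw [pow_two]; exact ha) ha1
  have hob : orderOf b = 2 := orderOf_eq_prime (by rw [pow_two]; exact hb) hb1
  have h1 : IsPGroup 2 (Subgroup.zpowers a) := IsPGroup.of_card (n := 1) (by rw [Nat.card_zpowers, hoa, pow_one])
  have h2 : IsPGroup 2 (Subgroup.zpowers b) := IsPGroup.of_card (n := 1) (by rw [Nat.card_zpowers, hob, pow_one])
  have h3 : IsPGroup 2 (Subgroup.zpowers a ⊔ Subgroup.zpowers b : Subgroup Y) := by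
    refine h1.to_sup_of_normal_right' h2 ?_
    rw [Subgroup.zpowers_le, Subgroup.mem_normalizer_iff]
    intro x
    have hab' : ∀ i : ℤ, a * b ^ i * a⁻¹ = b ^ i := by
      intro i
      rw [((show Commute a b from hab).zpow_right i).eq, mul_inv_cancel_right]
    constructor
    · rintro ⟨i, rfl⟩
      exact ⟨i, (hab' i).symm⟩
    · rintro ⟨i, hi⟩
      refine ⟨i, ?_⟩
      have h4 : a * x * a⁻¹ = a * b ^ i * a⁻¹ := hi.symm.trans (hab' i).symm
      exact (mul_left_cancel (mul_right_cancel h4)).symm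
  obtain ⟨P, hP⟩ := h3.exists_le_sylow
  have haP : a ∈ (P : Subgroup Y) := hP ((le_sup_left : Subgroup.zpowers a ≤ _) (Subgroup.mem_zpowers a))
  have hbP : b ∈ (P : Subgroup Y) := hP ((le_sup_right : Subgroup.zpowers b ≤ _) (Subgroup.mem_zpowers b))
  have hPc : IsCyclic P := isCyclic_of_surjective (Q.equiv P) (Q.equiv P).surjective
  exact not_cyclic (P := (P : Subgroup Y)) (a := ⟨a, haP⟩) (b := ⟨b, hbP⟩) (Subtype.ext ha) (Subtype.ext hb)
    (fun h => ha1 (congrArg Subtype.val h)) (fun h => hb1 (congrArg Subtype.val h))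
    (fun h => hne (congrArg Subtype.val h)) hPc

end Cfsg.Agent.H311.K547
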